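import Cfsg.Agent.H291.TwentyFourHS
import Cfsg.Agent.EvenType.ChevTwo
import Cfsg.Agent.OddHalf.Small.Plug
import Cfsg.Agent.UniqLoc.Final

/-!
# Task 1478: a maximal subgroup of order 144, the case `|C(V)| = 24` (helper291)
-/

set_option autoImplicit false

namespace Cfsg.Agent.H291.TwentyFour

open Cfsg Subgroup Cfsg.Agent.H291.TwentyFourBase

universe u

/-- `G` is not of characteristic 2 type. -/
theorem not_char2 {G : Type u} [Group G] [Finite G] {A V R : Subgroup G} (hV : Nat.card V = 4)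
    (hR : Nat.card R = 3) (hNV : normalizer (V : Set G) = A) (hNR : normalizer (R : Set G) = A) :
    ¬ IsCharacteristicTwoType G := by
  rintro ⟨-, h⟩
  have h2 : Fact (Nat.Prime 2) := ⟨Nat.prime_two⟩
  have h1 := h V (IsPGroup.of_card (n := 2) (by rw [hV]; norm_num)) (by
    rintro rfl
    rw [Subgroup.card_bot] at hV
    norm_num at hV)
  rw [hNV] at h1
  have hRA : R ≤ A := by rw [← hNR]; exact le_normalizer
  set R' := R.subgroupOf A with hR'
  have hn : R'.Normal := by
    rw [hR', ← hNR]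
    exact Subgroup.normal_in_normalizer
  have hcR : Nat.card R' = 3 := by rw [hR', Nat.card_congr (subgroupOfEquivOfLe hRA).toEquiv, hR]
  have hp : IsPGroup 2 ↥(pCore 2 A) := by
    exact Cfsg.Agent.OddOrderLocal.PLengthOne.isPGroup_pCore 2
  have hpn : (pCore 2 A).Normal := by infer_instance
  have hcop : Disjoint R' (pCore 2 A) := by
    have hco : Nat.Coprime (Nat.card R') (Nat.card (pCore 2 A)) := by
      obtain ⟨k, hk⟩ := IsPGroup.iff_card.1 hp
      rw [hcR, hk]
      exact Nat.Coprime.pow_right k (by norm_num)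
    exact Subgroup.disjoint_of_coprime_natCard hco
  have hle : R' ≤ centralizer (pCore 2 A : Set A) := by
    intro x hx
    rw [mem_centralizer_iff]
    intro y hy
    exact (Subgroup.commute_of_normal_of_disjoint _ _ hn hpn hcop x y hx hy).symm
  have h3 := hle.trans h1
  have h4 : R' = ⊥ := by
    rw [← le_bot_iff]
    exact hcop le_rfl h3
  rw [h4, Subgroup.card_bot] at hcR
  norm_num at hcR

theorem charP_two {F : Type} [Field F] (h2 : (2 : F) = 0) : CharP F 2 :=
  CharTwo.of_one_ne_zero_of_two_eq_zero one_ne_zero h2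

/-- **Task 1478**, from the list of the known simple groups. -/
theorem no_24' (T : OrdDiv.OrderTable.{u})
    (psl3_four : ∀ {F : Type} [Field F] [Fintype F] (_ : (2 : F) ≠ 0)
      (V : Subgroup (Matrix.ProjectiveSpecialLinearGroup (Fin 3) F)) (_ : Nat.card V = 4) (_ : ∀ x ∈ V, x * x = 1),
      Nat.card (centralizer (V : Set (Matrix.ProjectiveSpecialLinearGroup (Fin 3) F))) * Nat.gcd 3 (Fintype.card F - 1) =
        (Fintype.card F - 1) ^ 2)
    (psu3_four : ∀ {F : Type} [Field F] [Fintype F] {q : ℕ} (_ : Fintype.card F = q ^ 2) (_ : (2 : F) ≠ 0)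
      (V : Subgroup (PSU 3 F q)) (_ : Nat.card V = 4) (_ : ∀ x ∈ V, x * x = 1),
      Nat.card (centralizer (V : Set (PSU 3 F q))) * Nat.gcd 3 (q + 1) = (q + 1) ^ 2)
    {G : Type u} [Group G] [Finite G] [IsSimpleGroup G] (hkn : IsKnownSimple' G) (hna : ∃ a b : G, a * b ≠ b * a)
    {A V R Q : Subgroup G} (hA : Nat.card A = 144)
    (hV : Nat.card V = 4) (hV2 : ∀ x ∈ V, x * x = 1) (hR : Nat.card R = 3)
    (hNV : normalizer (V : Set G) = A) (hNR : normalizer (R : Set G) = A)
    (hCV : Nat.card (centralizer (V : Set G)) = 24)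
    (hQ : Nat.card Q = 9) (hQe : ∀ x ∈ Q, x ^ 3 = 1) (hCQ : centralizer (Q : Set G) = Q)
    (h27 : ¬ 27 ∣ Nat.card G) : False := by
  have h144 : 144 ∣ Nat.card G := by rw [← hA]; exact card_subgroup_dvd_card A
  have D : Dat G := ⟨inferInstance, h144, h27, ⟨V, hV, hV2, hCV⟩, ⟨Q, hQ, hQe, hCQ⟩⟩
  have hC := not_char2 hV hR hNV hNR
  have hnm : ¬ IsMulCommutative G := by
    rintro ⟨⟨h⟩⟩
    obtain ⟨a, b, hab⟩ := hna
    exact hab (h a b)
  have lie : ¬ IsLieTypeChar 2 G := fun h => hC (EvenType.ChevTwo.charTwo hnm (Or.inl h))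
  have gcd3 : ∀ n : ℕ, Nat.gcd 3 n = 1 ∨ Nat.gcd 3 n = 3 := fun n => by
    have := (Nat.dvd_prime Nat.prime_three).1 (Nat.gcd_dvd_left 3 n)
    exact this
  have sq : ∀ n k : ℕ, (k = 1 ∨ k = 3) → 24 * k = n ^ 2 → False := by
    intro n k hk h
    have hn : n < 9 := by
      by_contra hn
      have : 9 ^ 2 ≤ n ^ 2 := Nat.pow_le_pow_left (by omega) 2
      rcases hk with rfl | rfl <;> omega
    rcases hk with rfl | rfl <;> interval_cases n <;> omega
  have small : ∀ n, Nat.card G = n → ¬ 144 ∣ n → False := fun n h1 h2 => h2 (h1 ▸ h144)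
  have alt_card : ∀ n : ℕ, 2 ≤ n → Nonempty (G ≃* ↥(alternatingGroup (Fin n))) → 2 * Nat.card G = n.factorial := by
    rintro n hn ⟨e⟩
    have : Nontrivial (Fin n) := Fin.nontrivial_iff_two_le.2 hn
    rw [Nat.card_congr e.toEquiv, Nat.card_eq_fintype_card, two_mul_card_alternatingGroup, Fintype.card_perm,
      Fintype.card_fin]
  rcases H341.ThreeList.kind_of_known T hkn (fun h => by
      obtain ⟨a, b, hab⟩ := hna
      exact hab (h a b)) ((show 3 ∣ 144 by norm_num).trans h144) h27 with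
    ⟨n, h5, h8, e⟩ | ⟨F, _, _, hq, ⟨e⟩⟩ | ⟨F, _, _, hq, h9, ⟨e⟩⟩ | ⟨F, _, _, hq, ⟨e⟩⟩ | ⟨F, _, _, hq, ⟨e⟩⟩ |
    ⟨F, _, _, q, hF, hq, hq2, h9, ⟨e⟩⟩ | ⟨F, _, _, q, hF, hq, ⟨e⟩⟩ | ⟨F, _, _, q, hF, hq, ⟨e⟩⟩ |
    ⟨F, _, _, hq, hq4, h9, ⟨e⟩⟩ | h | h | h | h | h
  · -- alternating groups
    have h1 := alt_card n (by omega) e
    have h6 : n ≠ 8 := by
      rintro rfl
      exact hC (OddHalf.Small.Alt.result (Or.inr (Or.inr rfl)) e)
    have h7 : n ≤ 7 := by omega
    obtain ⟨k, hk⟩ := h144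
    interval_cases n <;> simp [Nat.factorial] at h1 <;> omega
  · exact not_psl2 D hq e
  · by_cases h2 : (2 : F) = 0
    · exact lie (Or.inl ⟨F, inferInstance, inferInstance, charP_two h2, 3, by norm_num, fun h => absurd h (by norm_num), ⟨e⟩⟩)
    · obtain ⟨W, h3, h4, h5⟩ := (D.congr e).four
      have h6 := psl3_four h2 W h3 h4
      rw [h5] at h6
      exact sq _ _ (gcd3 _) h6
  · by_cases h2 : (2 : F) = 0
    · exact lie (Or.inl ⟨F, inferInstance, inferInstance, charP_two h2, 4, by norm_num, fun h => absurd h (by norm_num), ⟨e⟩⟩)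
    · exact not_psl D le_rfl (by omega) h2 e
  · by_cases h2 : (2 : F) = 0
    · exact lie (Or.inl ⟨F, inferInstance, inferInstance, charP_two h2, 5, by norm_num, fun h => absurd h (by norm_num), ⟨e⟩⟩)
    · exact not_psl D (by norm_num) (by omega) h2 e
  · by_cases h2 : (2 : F) = 0
    · exact lie (Or.inr (Or.inr (Or.inl ⟨F, inferInstance, inferInstance, charP_two h2, 3, q, hF, le_rfl, fun h => hq2 h.2, ⟨e⟩⟩)))
    · obtain ⟨W, h3, h4, h5⟩ := (D.congr e).four
      have h6 := psu3_four hF h2 W h3 h4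
      rw [h5] at h6
      exact sq _ _ (gcd3 _) h6
  · by_cases h2 : (2 : F) = 0
    · exact lie (Or.inr (Or.inr (Or.inl ⟨F, inferInstance, inferInstance, charP_two h2, 4, q, hF, by norm_num, fun h => absurd h.1 (by norm_num), ⟨e⟩⟩)))
    · exact not_psu D le_rfl hF (by omega) h2 e
  · by_cases h2 : (2 : F) = 0
    · exact lie (Or.inr (Or.inr (Or.inl ⟨F, inferInstance, inferInstance, charP_two h2, 5, q, hF, by norm_num, fun h => absurd h.1 (by norm_num), ⟨e⟩⟩)))
    · exact not_psu D (by norm_num) hF (by omega) h2 e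
  · by_cases h2 : (2 : F) = 0
    · exact lie (Or.inr (Or.inl ⟨F, inferInstance, inferInstance, charP_two h2, 2, le_rfl, fun _ => (by norm_num : 3 ≤ 4).trans hq4, ⟨e⟩⟩))
    · exact not_psp D hq h2 e
  · exact hC (OddHalf.Small.M11.charTwo_of_iso h)
  · exact hC (OddHalf.Small.M2223.m22 G h)
  · exact hC (OddHalf.Small.M2223.m23 G h)
  · exact TwentyFourHS.not_hs D h
  · have h1 := T.spor G (.j1, 175560) (by simp [OrdDiv.spor]) h
    exact small _ h1 (by norm_num)

end Cfsg.Agent.H291.TwentyFour
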