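import Cfsg.Agent.H341.ThreeElts2
import Cfsg.Agent.Phan.SU2Model
import Cfsg.Prelude.Def_CaseTheorems

/-!
# A maximal subgroup of order 144: the data and the classical families (helper291)

`Dat G`: `144 ∣ |G|`, `27 ∤ |G|`, a four-group with centralizer of order 24, a self-centralizing subgroup of order 9 and
exponent 3. Kills: `L₂(q)`, `L₄(q)`, `L₅(q)`, `U₄(q)`, `U₅(q)`, `PSp₄(q)` for odd `q`.
-/

set_option autoImplicit false

namespace Cfsg.Agent.H291.TwentyFourBase

open Cfsg Subgroup Matrix Cfsg.Agent.Phan Cfsg.Agent.H341.ThreeElts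

universe u v w

/-- The data. -/
structure Dat (G : Type*) [Group G] : Prop where
  fin : Finite G
  h144 : 144 ∣ Nat.card G
  h27 : ¬ 27 ∣ Nat.card G
  four : ∃ V : Subgroup G, Nat.card V = 4 ∧ (∀ x ∈ V, x * x = 1) ∧ Nat.card (centralizer (V : Set G)) = 24
  nine : ∃ Q : Subgroup G, Nat.card Q = 9 ∧ (∀ x ∈ Q, x ^ 3 = 1) ∧ centralizer (Q : Set G) = Q

theorem map_centralizer {G H : Type*} [Group G] [Group H] (e : G ≃* H) (S : Subgroup G) :
    (centralizer (S : Set G)).map (e : G →* H) = centralizer ((S.map (e : G →* H) : Subgroup H) : Set H) := by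
  ext y
  constructor
  · rintro ⟨x, hx, rfl⟩
    rw [mem_centralizer_iff]
    rintro _ ⟨s, hs, rfl⟩
    change e s * e x = e x * e s
    rw [← map_mul, mem_centralizer_iff.1 hx s hs, map_mul]
  · intro hy
    refine ⟨e.symm y, mem_centralizer_iff.2 fun s hs => ?_, e.apply_symm_apply y⟩
    apply e.injective
    rw [map_mul, map_mul, e.apply_symm_apply]
    exact mem_centralizer_iff.1 hy (e s) ⟨s, hs, rfl⟩

theorem card_map {G H : Type*} [Group G] [Group H] (e : G ≃* H) (S : Subgroup G) :
    Nat.card (S.map (e : G →* H)) = Nat.card S :=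
  (Nat.card_congr (S.equivMapOfInjective (e : G →* H) e.injective).toEquiv).symm

theorem Dat.congr {G H : Type*} [Group G] [Group H] (h : Dat G) (e : G ≃* H) : Dat H := by
  refine ⟨?_, ?_, ?_, ?_, ?_⟩
  · have := h.fin
    exact Finite.of_equiv G e.toEquiv
  · rw [← Nat.card_congr e.toEquiv]; exact h.h144
  · rw [← Nat.card_congr e.toEquiv]; exact h.h27
  · obtain ⟨V, h1, h2, h3⟩ := h.four
    refine ⟨V.map (e : G →* H), by rw [card_map, h1], ?_, by rw [← map_centralizer, card_map, h3]⟩
    rintro _ ⟨x, hx, rfl⟩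
    rw [← map_mul, h2 x hx, map_one]
  · obtain ⟨V, h1, h2, h3⟩ := h.nine
    refine ⟨V.map (e : G →* H), by rw [card_map, h1], ?_, by rw [← map_centralizer, h3]⟩
    rintro _ ⟨x, hx, rfl⟩
    rw [← map_pow, h2 x hx, map_one]

/-- a subgroup of order 9 has exponent 3 and is self-centralizing -/
theorem Dat.of_nine {G : Type*} [Group G] (h : Dat G) {E : Subgroup G} (hE : Nat.card E = 9) :
    (∀ x ∈ E, x ^ 3 = 1) ∧ centralizer (E : Set G) = E := by
  have := h.fin
  have : Fact (Nat.Prime 3) := ⟨Nat.prime_three⟩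
  obtain ⟨Q, h1, h2, h3⟩ := h.nine
  have hpos : Nat.card G ≠ 0 := Nat.card_pos.ne'
  have hf : (Nat.card G).factorization 3 = 2 := by
    have h9 : 3 ^ 2 ∣ Nat.card G := by
      rw [show 3 ^ 2 = 9 by norm_num, ← h1]; exact card_subgroup_dvd_card Q
    have ha : 2 ≤ (Nat.card G).factorization 3 := (Nat.prime_three.pow_dvd_iff_le_factorization hpos).1 h9
    have hb : ¬ 3 ≤ (Nat.card G).factorization 3 := fun h' => h.h27 (by
      rw [show (27 : ℕ) = 3 ^ 3 by norm_num]
      exact (Nat.prime_three.pow_dvd_iff_le_factorization hpos).2 h')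
    omega
  let S : Sylow 3 G := Sylow.ofCard E (by rw [hE, hf]; norm_num)
  let T : Sylow 3 G := Sylow.ofCard Q (by rw [h1, hf]; norm_num)
  obtain ⟨g, hg⟩ := MulAction.exists_smul_eq G T S
  have hgE : Q.map (MulAut.conj g : G →* G) = E := by
    have := congrArg (fun P : Sylow 3 G => (P : Subgroup G)) hg
    rw [← show (S : Subgroup G) = E from rfl, ← this]
    rfl
  constructor
  · rw [← hgE]
    rintro _ ⟨x, hx, rfl⟩
    rw [← map_pow, h2 x hx, map_one]
  · rw [← hgE, ← map_centralizer, h3]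

theorem Dat.no_nine {G : Type*} [Group G] (h : Dat G) (g : G) : orderOf g ≠ 9 := by
  intro hg
  have h1 := (h.of_nine (E := zpowers g) (by rw [Nat.card_zpowers, hg])).1 g (mem_zpowers g)
  have h2 := orderOf_dvd_of_pow_eq_one h1
  rw [hg] at h2
  norm_num at h2

/-- the subgroup generated by two commuting elements of order 3 -/
theorem exists_pair {G : Type*} [Group G] [Finite G] {a b : G} (ha : orderOf a = 3) (hb : orderOf b = 3)
    (hab : a * b = b * a) (hne : b ∉ zpowers a) :
    ∃ E : Subgroup G, Nat.card E = 9 ∧ a ∈ E ∧ b ∈ E ∧ ∀ z : G, z * a = a * z → z * b = b * z →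
      z ∈ centralizer (E : Set G) := by
  have hc : ∀ (m : zpowers a) (n : zpowers b), Commute ((zpowers a).subtype m) ((zpowers b).subtype n) := by
    rintro ⟨_, k, rfl⟩ ⟨_, l, rfl⟩
    exact ((show Commute a b from hab).zpow_zpow k l)
  have h1 : _root_.Disjoint (zpowers a) (zpowers b) := by
    rw [disjoint_iff]
    have h3 : Nat.card (zpowers b) = 3 := by rw [Nat.card_zpowers, hb]
    have : Fact (Nat.card (zpowers b)).Prime := ⟨by rw [h3]; norm_num⟩
    rcases ((zpowers a).subgroupOf (zpowers b)).eq_bot_or_eq_top_of_prime_card with h2 | h2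
    · rw [subgroupOf_eq_bot] at h2
      exact disjoint_iff.1 h2
    · rw [subgroupOf_eq_top] at h2
      exact absurd (h2 (mem_zpowers b)) hne
  set f := MonoidHom.noncommCoprod (zpowers a).subtype (zpowers b).subtype hc with hf
  have hinj : Function.Injective f := by
    rw [hf, MonoidHom.noncommCoprod_injective]
    refine ⟨Subtype.val_injective, Subtype.val_injective, ?_⟩
    rwa [range_subtype, range_subtype]
  refine ⟨f.range, ?_, ⟨(⟨a, mem_zpowers a⟩, 1), ?_⟩, ⟨(1, ⟨b, mem_zpowers b⟩), ?_⟩, fun z hza hzb => ?_⟩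
  · rw [← Nat.card_congr (MonoidHom.ofInjective hinj).toEquiv, Nat.card_prod, Nat.card_zpowers, Nat.card_zpowers, ha, hb]
  · rw [hf, MonoidHom.noncommCoprod_apply]; simp
  · rw [hf, MonoidHom.noncommCoprod_apply]; simp
  · rw [mem_centralizer_iff]
    rintro _ ⟨⟨⟨_, k, rfl⟩, ⟨_, l, rfl⟩⟩, rfl⟩
    have h4 : Commute z a := hza
    have h5 : Commute z b := hzb
    exact ((h4.zpow_right k).mul_right (h5.zpow_right l)).symm

/-- **Nothing of order prime to 3 centralizes a subgroup of order 9.** -/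
theorem Dat.pair {G : Type*} [Group G] (h : Dat G) {a b z : G} (ha : orderOf a = 3) (hb : orderOf b = 3)
    (hab : a * b = b * a) (hne : b ∉ zpowers a) (hza : z * a = a * z) (hzb : z * b = b * z) : z ^ 3 = 1 := by
  have := h.fin
  obtain ⟨E, hE, -, -, hc⟩ := exists_pair ha hb hab hne
  obtain ⟨h1, h2⟩ := h.of_nine hE
  exact h1 z (by rw [← h2]; exact hc z hza hzb)

/-! ### two commuting copies of `SL₂` -/

theorem sl_center_sq {K : Type*} [Field K] {c : SpecialLinearGroup (Fin 2) K}
    (hc : c ∈ center (SpecialLinearGroup (Fin 2) K)) : c ^ 2 = 1 := by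
  obtain ⟨r, hr, h⟩ := Matrix.SpecialLinearGroup.mem_center_iff.1 hc
  rw [Fintype.card_fin] at hr
  have h1 : (c : Matrix (Fin 2) (Fin 2) K) ^ 2 = 1 := by rw [← h, ← map_pow, hr, map_one]
  exact Matrix.SpecialLinearGroup.ext _ _ fun i j => by
    have := congrFun (congrFun h1 i) j
    rwa [← Matrix.SpecialLinearGroup.coe_pow] at this

theorem Dat.sl_pair {G : Type*} [Group G] (h : Dat G) {K : Type} [Field K] [Fintype K] (h3 : ¬ 3 ∣ Fintype.card K)
    (h2 : (2 : K) ≠ 0) (f g : SpecialLinearGroup (Fin 2) K →* G) (hf : Function.Injective f)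
    (hg : Function.Injective g) (hfg : ∀ b c, f b * g c = g c * f b) : False := by
  obtain ⟨w, hw⟩ := exists_three_SL2 h3
  have hz2 : (-1 : SpecialLinearGroup (Fin 2) K) ^ 2 = 1 := by simp
  have hz1 : (-1 : SpecialLinearGroup (Fin 2) K) ≠ 1 := by
    intro h1
    have h4 : (-1 : K) = 1 := by
      have h5 := congrArg (fun x : SpecialLinearGroup (Fin 2) K => (x : Matrix (Fin 2) (Fin 2) K) 0 0) h1
      simpa using h5
    apply h2
    linear_combination -h4
  have hw1 : w ≠ 1 := by
    rintro rfl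
    rw [orderOf_one] at hw
    norm_num at hw
  have hkey := h.pair (a := f w) (b := g w) (z := f (-1)) (by rw [orderOf_injective f hf, hw])
    (by rw [orderOf_injective g hg, hw]) (hfg w w) ?_ (by rw [← map_mul, ← map_mul]; simp) (hfg _ _)
  · apply hz1
    apply hf
    rw [map_one]
    have h5 : f (-1) ^ 2 = 1 := by rw [← map_pow, hz2, map_one]
    calc f (-1) = f (-1) ^ 3 * (f (-1) ^ 2)⁻¹ := by group
      _ = 1 := by rw [hkey, h5]; simp
  · rintro ⟨k, hk⟩
    have hk' : f (w ^ k) = g w := by rw [map_zpow]; exact hk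
    have hc : w ^ k ∈ center (SpecialLinearGroup (Fin 2) K) := by
      rw [mem_center_iff]
      intro x
      apply hf
      rw [map_mul, map_mul, hk', hfg]
    have h6 := sl_center_sq hc
    apply hw1
    apply hg
    rw [map_one, ← hk']
    have h7 : w ^ 3 = 1 := by rw [← hw, pow_orderOf_eq_one]
    have h8 : (w ^ k) ^ 3 = 1 := by rw [← zpow_natCast, zpow_comm, zpow_natCast, h7, _root_.one_zpow]
    have h9 : w ^ k = 1 := by
      calc w ^ k = (w ^ k) ^ 3 * ((w ^ k) ^ 2)⁻¹ := by group
        _ = 1 := by rw [h8, h6]; simp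
    rw [h9, map_one]

/-! ### the families -/

section

variable {F : Type} [Field F] [Fintype F] {q : ℕ}

theorem not_psl2 {G : Type*} [Group G] (h : Dat G) (hq : 4 ≤ Fintype.card F)
    (e : G ≃* ProjectiveSpecialLinearGroup (Fin 2) F) : False := by
  have h' := h.congr e
  have h9 := psl2_nine hq ((show 9 ∣ 144 by norm_num).trans h'.h144) h'.h27 h'.no_nine
  have hc := Cfsg.Agent.H341.ThreeList.card_psl (F := F) (n := 2) le_rfl
  rw [h9, show 2 - 1 = 1 by rfl, Finset.prod_range_one] at hc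
  norm_num at hc
  have h1 := h'.h144
  omega

/-- not `PSL₄(q)`, `PSL₅(q)`, `q` odd -/
theorem not_psl {G : Type*} [Group G] (h : Dat G) {n : ℕ} (hn : 4 ≤ n) (hq : ¬ 3 ∣ Fintype.card F) (h2 : (2 : F) ≠ 0)
    (e : G ≃* ProjectiveSpecialLinearGroup (Fin n) F) : False := by
  have h' := h.congr e
  have h0 : 0 + 2 ≤ n := by omega
  have hk : 2 + 2 ≤ n := by omega
  have hi1 := pslExt_injective (F := F) (sh_injective (m := 2) (n := n) 0 h0) (x₀ := ⟨2, by omega⟩)
    (fun i hi => by
      have := congrArg Fin.val hi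
      rw [sh_val] at this
      have := i.2
      simp only at *
      omega)
  have hi2 := pslExt_injective (F := F) (sh_injective (m := 2) (n := n) 2 hk) (x₀ := ⟨0, by omega⟩)
    (fun i hi => by
      have := congrArg Fin.val hi
      rw [sh_val] at this
      simp only at *
      omega)
  refine h'.sl_pair hq h2 _ _ hi1 hi2 ?_
  intro b c
  apply pslExt_comm
  intro i j hij
  have := congrArg Fin.val hij
  rw [sh_val, sh_val] at this
  have := i.2
  omega

/-- not `PSU₄(q)`, `PSU₅(q)`, `q` odd -/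
theorem not_psu {G : Type*} [Group G] (h : Dat G) {n : ℕ} (hn : 4 ≤ n) (hF : Fintype.card F = q ^ 2)
    (hq : ¬ 3 ∣ q) (h2 : (2 : F) ≠ 0) (e : G ≃* PSU n F q) : False := by
  have h' := h.congr e
  obtain ⟨_, _, _, _, θ, _⟩ := Phan.exists_model hF
  have : Fintype (Phan.fixedField hF) := Fintype.ofFinite _
  have h0 : 0 + 2 ≤ n := by omega
  have hk : 2 + 2 ≤ n := by omega
  have hcard : Fintype.card (Phan.fixedField hF) = q := by
    rw [← Nat.card_eq_fintype_card]; exact Phan.card_fixedField hF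
  refine h'.sl_pair (K := Phan.fixedField hF) (by rw [hcard]; exact hq) ?_
    ((psuEmb hF 0 h0).comp (θ : _ →* _)) ((psuEmb hF 2 hk).comp (θ : _ →* _))
    ((psuEmb_injective hF 0 h0 (by omega) (by omega)).comp θ.injective)
    ((psuEmb_injective hF 2 hk (by omega) (by omega)).comp θ.injective) ?_
  · intro h4
    apply h2
    have := congrArg (Phan.fixedField hF).subtype h4
    rwa [map_ofNat, map_zero] at this
  · intro b c
    change QuotientGroup.mk' _ (emb hF 0 h0 (θ b)) * QuotientGroup.mk' _ (emb hF 2 hk (θ c)) = _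
    rw [← map_mul, emb_comm hF h0 hk (by omega), map_mul]
    rfl

/-- not `PSp₄(q)`, `q` odd -/
theorem not_psp {G : Type*} [Group G] (h : Dat G) (hq : ¬ 3 ∣ Fintype.card F) (h2 : (2 : F) ≠ 0)
    (e : G ≃* PSp 2 F) : False := by
  have h' := h.congr e
  exact h'.sl_pair hq h2 _ _ spLeft_injective spRight_injective (fun b c => spHom_comm b c)

end

end Cfsg.Agent.H291.TwentyFourBase
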